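import Cfsg.Agent.H16.Slp

/-! Generated by tools/h15/cs.py. -/

set_option maxRecDepth 100000
set_option maxHeartbeats 0
set_option linter.unusedVariables false

namespace H15.XYA8

open H16

noncomputable def Rl : List (List ℕ) := [[nat_lit 0, nat_lit 0],
  [nat_lit 1, nat_lit 1],
  [nat_lit 2, nat_lit 2],
  [nat_lit 0, nat_lit 1, nat_lit 0, nat_lit 1, nat_lit 0, nat_lit 1, nat_lit 0, nat_lit 1],
  [nat_lit 0, nat_lit 2, nat_lit 0, nat_lit 2],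
  [nat_lit 1, nat_lit 2, nat_lit 1, nat_lit 2, nat_lit 1, nat_lit 2, nat_lit 1, nat_lit 2],
  [nat_lit 0, nat_lit 1, nat_lit 0, nat_lit 2, nat_lit 1, nat_lit 0, nat_lit 2, nat_lit 1, nat_lit 0, nat_lit 2, nat_lit 1, nat_lit 2]]
noncomputable def Pd : List ℕ := [nat_lit 0xa7c6b0,
  nat_lit 0x5a57c8,
  nat_lit 0x37383a]
noncomputable def P (k u : ℕ) : ℕ := Nat.land (Nat.shiftRight (nth (nat_lit 0) Pd k) (Nat.mul u (nat_lit 3))) (nat_lit 7)
noncomputable def T0d : List ℕ := [nat_lit 0x5e475eab3870,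
  nat_lit 0x3c6ae4d69cb0,
  nat_lit 0xb6bdeadb4a31]
noncomputable def T0 (k u : ℕ) : ℕ := Nat.land (Nat.shiftRight (nth (nat_lit 0) T0d k) (Nat.mul u (nat_lit 6))) (nat_lit 63)
noncomputable def I0d : List ℕ := [nat_lit 0xa600ca,
  nat_lit 0xb0320a,
  nat_lit 0x8241]
noncomputable def I0 (k u : ℕ) : ℕ := Nat.land (Nat.shiftRight (nth (nat_lit 0) I0d k) (Nat.mul u (nat_lit 3))) (nat_lit 7)
noncomputable def D0d : ℕ := nat_lit 0x8ad4831040
noncomputable def D0 (u : ℕ) : ℕ := Nat.land (Nat.shiftRight D0d (Nat.mul u (nat_lit 5))) (nat_lit 31)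
noncomputable def RL0 : List (List Rule) := [[.rel (nat_lit 0) (nat_lit 0) [nat_lit 0], .rel (nat_lit 8) (nat_lit 0) [nat_lit 2, nat_lit 0, nat_lit 2], .sub (nat_lit 0) [] [], .defn, .rel (nat_lit 6) (nat_lit 4) [nat_lit 1, nat_lit 0, nat_lit 1, nat_lit 0, nat_lit 1, nat_lit 0, nat_lit 1], .rel (nat_lit 8) (nat_lit 2) [nat_lit 2, nat_lit 0, nat_lit 2]],
  [.rel (nat_lit 2) (nat_lit 0) [nat_lit 1], .defn, .sub (nat_lit 2) [] [], .rel (nat_lit 10) (nat_lit 0) [nat_lit 2, nat_lit 1, nat_lit 2, nat_lit 1, nat_lit 2, nat_lit 1, nat_lit 2], .rel (nat_lit 10) (nat_lit 4) [nat_lit 2, nat_lit 1, nat_lit 2, nat_lit 1, nat_lit 2, nat_lit 1, nat_lit 2], .rel (nat_lit 12) (nat_lit 4) [nat_lit 0, nat_lit 2, nat_lit 1, nat_lit 0, nat_lit 2, nat_lit 1, nat_lit 2, nat_lit 0, nat_lit 1, nat_lit 0, nat_lit 2]],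
  [.rel (nat_lit 4) (nat_lit 0) [nat_lit 2], .defn]]
noncomputable def c0 : TCert := ⟨8, 3, 7, T0, I0, D0, [[nat_lit 0],
  [nat_lit 1]], RL0⟩
noncomputable def Pt0d : ℕ := nat_lit 0x7a1bd0
noncomputable def Pt0 (u : ℕ) : ℕ := Nat.land (Nat.shiftRight Pt0d (Nat.mul u (nat_lit 3))) (nat_lit 7)
noncomputable def Q0d : ℕ := nat_lit 0x59de60
noncomputable def Q0 (u : ℕ) : ℕ := Nat.land (Nat.shiftRight Q0d (Nat.mul u (nat_lit 3))) (nat_lit 7)
noncomputable def l0 : H16.Lev := ⟨8, 3, D0, Pt0, Q0⟩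
noncomputable def T1d : List ℕ := [nat_lit 0x35a8,
  nat_lit 0x6b49]
noncomputable def T1 (k u : ℕ) : ℕ := Nat.land (Nat.shiftRight (nth (nat_lit 0) T1d k) (Nat.mul u (nat_lit 4))) (nat_lit 15)
noncomputable def I1d : List ℕ := [nat_lit 0xc9,
  nat_lit 0x11]
noncomputable def I1 (k u : ℕ) : ℕ := Nat.land (Nat.shiftRight (nth (nat_lit 0) I1d k) (Nat.mul u (nat_lit 2))) (nat_lit 3)
noncomputable def D1d : ℕ := nat_lit 0xa88
noncomputable def D1 (u : ℕ) : ℕ := Nat.land (Nat.shiftRight D1d (Nat.mul u (nat_lit 3))) (nat_lit 7)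
noncomputable def RL1 : List (List Rule) := [[.rel (nat_lit 0) (nat_lit 0) [nat_lit 0], .sub (nat_lit 0) [] [], .defn, .rel (nat_lit 6) (nat_lit 0) [nat_lit 1, nat_lit 0, nat_lit 1, nat_lit 0, nat_lit 1, nat_lit 0, nat_lit 1]],
  [.rel (nat_lit 2) (nat_lit 0) [nat_lit 1], .defn]]
noncomputable def c1 : TCert := ⟨4, 2, 3, T1, I1, D1, [[nat_lit 0]], RL1⟩
noncomputable def Pt1d : ℕ := nat_lit 0x97a
noncomputable def Pt1 (u : ℕ) : ℕ := Nat.land (Nat.shiftRight Pt1d (Nat.mul u (nat_lit 3))) (nat_lit 7)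
noncomputable def Q1d : ℕ := nat_lit 0x4b00
noncomputable def Q1 (u : ℕ) : ℕ := Nat.land (Nat.shiftRight Q1d (Nat.mul u (nat_lit 2))) (nat_lit 3)
noncomputable def l1 : H16.Lev := ⟨4, 2, D1, Pt1, Q1⟩
noncomputable def T2d : List ℕ := [nat_lit 3]
noncomputable def T2 (k u : ℕ) : ℕ := Nat.land (Nat.shiftRight (nth (nat_lit 0) T2d k) (Nat.mul u (nat_lit 2))) (nat_lit 3)
noncomputable def I2d : List ℕ := [nat_lit 1]
noncomputable def I2 (k u : ℕ) : ℕ := Nat.land (Nat.shiftRight (nth (nat_lit 0) I2d k) (Nat.mul u (nat_lit 1))) (nat_lit 1)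
noncomputable def D2d : ℕ := nat_lit 0
noncomputable def D2 (u : ℕ) : ℕ := Nat.land (Nat.shiftRight D2d (Nat.mul u (nat_lit 1))) (nat_lit 1)
noncomputable def RL2 : List (List Rule) := [[.rel (nat_lit 0) (nat_lit 0) [nat_lit 0], .defn]]
noncomputable def c2 : TCert := ⟨2, 1, 1, T2, I2, D2, [], RL2⟩
noncomputable def Pt2d : ℕ := nat_lit 0x3d
noncomputable def Pt2 (u : ℕ) : ℕ := Nat.land (Nat.shiftRight Pt2d (Nat.mul u (nat_lit 3))) (nat_lit 7)
noncomputable def Q2d : ℕ := nat_lit 0x80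
noncomputable def Q2 (u : ℕ) : ℕ := Nat.land (Nat.shiftRight Q2d (Nat.mul u (nat_lit 1))) (nat_lit 1)
noncomputable def l2 : H16.Lev := ⟨2, 1, D2, Pt2, Q2⟩
noncomputable def B : List ℕ := [nat_lit 0, nat_lit 2, nat_lit 5]
noncomputable def L : List H16.Lev := [l0, l1, l2]

theorem tc0e_a : allZ2 (entryChk T0 (selR RL0 I0) D0 (nat_lit 7) (nat_lit 8) (nat_lit 3)) (nat_lit 3) (nat_lit 8) = true := by decide +kernel
theorem tc0r : rulesChk Rl c0.Sl RL0 (nat_lit 3) = true := by decide +kernel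
theorem ivc : ivChk Rl (nat_lit 3) = true := by decide +kernel
theorem lv0e_0 : allZ (l0.ent P) (nat_lit 0) (nat_lit 7) = true := by decide +kernel
theorem lv0b : Nat.blt (Pt0 (nat_lit 0)) (nat_lit 8) = true ∧ Q0 (Pt0 (nat_lit 0)) = 0 ∧ Pt0 (nat_lit 0) = 0 := by decide +kernel
theorem sb0 : H16.allL (ltAll (nat_lit 2)) c0.Sl = true ∧ fixLetters P (nat_lit 2) (Pt0 (nat_lit 0)) = true := by decide +kernel
theorem tc1e_a : allZ2 (entryChk T1 (selR RL1 I1) D1 (nat_lit 3) (nat_lit 4) (nat_lit 2)) (nat_lit 2) (nat_lit 4) = true := by decide +kernel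
theorem tc1r : rulesChk Rl c1.Sl RL1 (nat_lit 2) = true := by decide +kernel
theorem lv1e_0 : allZ (l1.ent P) (nat_lit 0) (nat_lit 3) = true := by decide +kernel
theorem lv1b : Nat.blt (Pt1 (nat_lit 0)) (nat_lit 8) = true ∧ Q1 (Pt1 (nat_lit 0)) = 0 ∧ Pt1 (nat_lit 0) = 2 := by decide +kernel
theorem sb1 : H16.allL (ltAll (nat_lit 1)) c1.Sl = true ∧ fixLetters P (nat_lit 1) (Pt1 (nat_lit 0)) = true := by decide +kernel
theorem tc2e_a : allZ2 (entryChk T2 (selR RL2 I2) D2 (nat_lit 1) (nat_lit 2) (nat_lit 1)) (nat_lit 1) (nat_lit 2) = true := by decide +kernel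
theorem tc2r : rulesChk Rl c2.Sl RL2 (nat_lit 1) = true := by decide +kernel
theorem lv2e_0 : allZ (l2.ent P) (nat_lit 0) (nat_lit 1) = true := by decide +kernel
theorem lv2b : Nat.blt (Pt2 (nat_lit 0)) (nat_lit 8) = true ∧ Q2 (Pt2 (nat_lit 0)) = 0 ∧ Pt2 (nat_lit 0) = 5 := by decide +kernel
theorem sb2 : H16.allL (ltAll (nat_lit 0)) c2.Sl = true ∧ fixLetters P (nat_lit 0) (Pt2 (nat_lit 0)) = true := by decide +kernel
theorem Blt : ltAll (nat_lit 8) B = 0 := by decide +kernel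

theorem tc0e : ∀ k < 3, ∀ i < 8, (entryChk T0 (selR RL0 I0) D0 (nat_lit 7) (nat_lit 8) (nat_lit 3)) k i = 0 := allZ2_sound tc0e_a
theorem tc0 : c0.OK Rl 3 := ⟨by decide, by decide, by decide, ivc, tc0r, tc0e⟩
theorem lv0e : ∀ i < 7, (l0.ent P) i = 0 := allZ_sound0 lv0e_0
theorem lv0 : l0.OK P 8 := ⟨by decide, by decide, lt_of_blt lv0b.1, lv0b.2.1, lv0e⟩
theorem tc1e : ∀ k < 2, ∀ i < 4, (entryChk T1 (selR RL1 I1) D1 (nat_lit 3) (nat_lit 4) (nat_lit 2)) k i = 0 := allZ2_sound tc1e_a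
theorem tc1 : c1.OK Rl 3 := ⟨by decide, by decide, by decide, ivc, tc1r, tc1e⟩
theorem lv1e : ∀ i < 3, (l1.ent P) i = 0 := allZ_sound0 lv1e_0
theorem lv1 : l1.OK P 8 := ⟨by decide, by decide, lt_of_blt lv1b.1, lv1b.2.1, lv1e⟩
theorem tc2e : ∀ k < 1, ∀ i < 2, (entryChk T2 (selR RL2 I2) D2 (nat_lit 1) (nat_lit 2) (nat_lit 1)) k i = 0 := allZ2_sound tc2e_a
theorem tc2 : c2.OK Rl 3 := ⟨by decide, by decide, by decide, ivc, tc2r, tc2e⟩
theorem lv2e : ∀ i < 1, (l2.ent P) i = 0 := allZ_sound0 lv2e_0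
theorem lv2 : l2.OK P 8 := ⟨by decide, by decide, lt_of_blt lv2b.1, lv2b.2.1, lv2e⟩
theorem bound2 : Bound Rl 1 2 := Bound.step' (Bound.zero Rl) tc2 sb2.1 (by decide +kernel)
theorem bound1 : Bound Rl 2 8 := Bound.step' (bound2) tc1 sb1.1 (by decide +kernel)
theorem bound0 : Bound Rl 3 64 := Bound.step' (bound1) tc0 sb0.1 (by decide +kernel)
/-- every tuple satisfying `Rl` generates a group of order at most `64` -/
theorem bound : Bound Rl 3 64 := bound0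
theorem chain_of {G Ω : Type*} [Group G] [MulAction G Ω] {g : ℕ → G} {pt : ℕ → Ω}
    (h : Act g pt P 8 3) (hR : Rels g Rl) : IsChain g pt 8 L :=
  IsChain.cons (L := [l1, l2]) (IsChain.cons (L := [l2]) (IsChain.cons (L := []) (trivial) h hR tc2 lv2 rfl rfl rfl (by decide) sb2.1 sb2.2) h hR tc1 lv1 rfl rfl rfl (by decide) sb1.1 sb1.2) h hR tc0 lv0 rfl rfl rfl (by decide) sb0.1 sb0.2
theorem base_eq : chainBase L = B := by decide +kernel

end H15.XYA8
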