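import Cfsg.Agent.H16.Slp

/-! Generated by tools/h15/cs.py. -/

set_option maxRecDepth 100000
set_option maxHeartbeats 0
set_option linter.unusedVariables false

namespace H15.XYS8

open H16

noncomputable def Rl : List (List ℕ) := [[nat_lit 0, nat_lit 0],
  [nat_lit 1, nat_lit 1],
  [nat_lit 2, nat_lit 2],
  [nat_lit 3, nat_lit 3],
  [nat_lit 0, nat_lit 1, nat_lit 0, nat_lit 1],
  [nat_lit 0, nat_lit 2, nat_lit 0, nat_lit 2],
  [nat_lit 1, nat_lit 2, nat_lit 1, nat_lit 2, nat_lit 1, nat_lit 2, nat_lit 1, nat_lit 2],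
  [nat_lit 0, nat_lit 1, nat_lit 3, nat_lit 0, nat_lit 3],
  [nat_lit 2, nat_lit 3, nat_lit 2, nat_lit 3, nat_lit 2, nat_lit 3, nat_lit 2, nat_lit 3]]
noncomputable def Pd : List ℕ := [nat_lit 0xfac4c8,
  nat_lit 0xf744c8,
  nat_lit 0xf0e6a8,
  nat_lit 0x8d7d41]
noncomputable def P (k u : ℕ) : ℕ := Nat.land (Nat.shiftRight (nth (nat_lit 0) Pd k) (Nat.mul u (nat_lit 3))) (nat_lit 7)
noncomputable def T0d : List ℕ := [nat_lit 0x2e50e9e46a98c0,
  nat_lit 0x1e1128e750d4c0,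
  nat_lit 0xe39db48ae6140,
  nat_lit 0x7aee3ba8d11c41]
noncomputable def T0 (k u : ℕ) : ℕ := Nat.land (Nat.shiftRight (nth (nat_lit 0) T0d k) (Nat.mul u (nat_lit 7))) (nat_lit 127)
noncomputable def I0d : List ℕ := [nat_lit 0x88843,
  nat_lit 0x602c2,
  nat_lit 0xac420a,
  nat_lit 0x8241]
noncomputable def I0 (k u : ℕ) : ℕ := Nat.land (Nat.shiftRight (nth (nat_lit 0) I0d k) (Nat.mul u (nat_lit 3))) (nat_lit 7)
noncomputable def D0d : ℕ := nat_lit 0xbbdcb49860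
noncomputable def D0 (u : ℕ) : ℕ := Nat.land (Nat.shiftRight D0d (Nat.mul u (nat_lit 5))) (nat_lit 31)
noncomputable def RL0 : List (List Rule) := [[.rel (nat_lit 14) (nat_lit 3) [nat_lit 3, nat_lit 0, nat_lit 1, nat_lit 3], .rel (nat_lit 10) (nat_lit 2) [nat_lit 2, nat_lit 0, nat_lit 2], .rel (nat_lit 0) (nat_lit 0) [nat_lit 0], .sub (nat_lit 0) [] [], .rel (nat_lit 8) (nat_lit 2) [nat_lit 1, nat_lit 0, nat_lit 1]],
  [.rel (nat_lit 14) (nat_lit 1) [nat_lit 3, nat_lit 0, nat_lit 3, nat_lit 0], .rel (nat_lit 2) (nat_lit 0) [nat_lit 1], .sub (nat_lit 2) [] [], .defn, .rel (nat_lit 12) (nat_lit 4) [nat_lit 2, nat_lit 1, nat_lit 2, nat_lit 1, nat_lit 2, nat_lit 1, nat_lit 2]],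
  [.rel (nat_lit 4) (nat_lit 0) [nat_lit 2], .defn, .sub (nat_lit 4) [] [], .rel (nat_lit 10) (nat_lit 3) [nat_lit 0, nat_lit 2, nat_lit 0], .rel (nat_lit 16) (nat_lit 0) [nat_lit 3, nat_lit 2, nat_lit 3, nat_lit 2, nat_lit 3, nat_lit 2, nat_lit 3], .rel (nat_lit 16) (nat_lit 4) [nat_lit 3, nat_lit 2, nat_lit 3, nat_lit 2, nat_lit 3, nat_lit 2, nat_lit 3]],
  [.rel (nat_lit 6) (nat_lit 0) [nat_lit 3], .defn]]
noncomputable def c0 : TCert := ⟨8, 4, 7, T0, I0, D0, [[nat_lit 0],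
  [nat_lit 1],
  [nat_lit 2]], RL0⟩
noncomputable def Pt0d : ℕ := nat_lit 0xee2d48
noncomputable def Pt0 (u : ℕ) : ℕ := Nat.land (Nat.shiftRight Pt0d (Nat.mul u (nat_lit 3))) (nat_lit 7)
noncomputable def Q0d : ℕ := nat_lit 0xed5d08
noncomputable def Q0 (u : ℕ) : ℕ := Nat.land (Nat.shiftRight Q0d (Nat.mul u (nat_lit 3))) (nat_lit 7)
noncomputable def l0 : H16.Lev := ⟨8, 4, D0, Pt0, Q0⟩
noncomputable def T1d : List ℕ := [nat_lit 0x19930,
  nat_lit 0x5b650,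
  nat_lit 0x74d91]
noncomputable def T1 (k u : ℕ) : ℕ := Nat.land (Nat.shiftRight (nth (nat_lit 0) T1d k) (Nat.mul u (nat_lit 5))) (nat_lit 31)
noncomputable def I1d : List ℕ := [nat_lit 0xd8,
  nat_lit 0xc9,
  nat_lit 0x11]
noncomputable def I1 (k u : ℕ) : ℕ := Nat.land (Nat.shiftRight (nth (nat_lit 0) I1d k) (Nat.mul u (nat_lit 2))) (nat_lit 3)
noncomputable def D1d : ℕ := nat_lit 0x8420
noncomputable def D1 (u : ℕ) : ℕ := Nat.land (Nat.shiftRight D1d (Nat.mul u (nat_lit 4))) (nat_lit 15)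
noncomputable def RL1 : List (List Rule) := [[.sub (nat_lit 0) [] [], .rel (nat_lit 8) (nat_lit 2) [nat_lit 1, nat_lit 0, nat_lit 1], .rel (nat_lit 10) (nat_lit 0) [nat_lit 2, nat_lit 0, nat_lit 2], .rel (nat_lit 10) (nat_lit 2) [nat_lit 2, nat_lit 0, nat_lit 2]],
  [.rel (nat_lit 2) (nat_lit 0) [nat_lit 1], .sub (nat_lit 2) [] [], .defn, .rel (nat_lit 12) (nat_lit 0) [nat_lit 2, nat_lit 1, nat_lit 2, nat_lit 1, nat_lit 2, nat_lit 1, nat_lit 2]],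
  [.rel (nat_lit 4) (nat_lit 0) [nat_lit 2], .defn]]
noncomputable def c1 : TCert := ⟨4, 3, 3, T1, I1, D1, [[nat_lit 0],
  [nat_lit 1]], RL1⟩
noncomputable def Pt1d : ℕ := nat_lit 0x9a9
noncomputable def Pt1 (u : ℕ) : ℕ := Nat.land (Nat.shiftRight Pt1d (Nat.mul u (nat_lit 3))) (nat_lit 7)
noncomputable def Q1d : ℕ := nat_lit 0x2700
noncomputable def Q1 (u : ℕ) : ℕ := Nat.land (Nat.shiftRight Q1d (Nat.mul u (nat_lit 2))) (nat_lit 3)
noncomputable def l1 : H16.Lev := ⟨4, 3, D1, Pt1, Q1⟩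
noncomputable def T2d : List ℕ := [nat_lit 0xc,
  nat_lit 0x15]
noncomputable def T2 (k u : ℕ) : ℕ := Nat.land (Nat.shiftRight (nth (nat_lit 0) T2d k) (Nat.mul u (nat_lit 3))) (nat_lit 7)
noncomputable def I2d : List ℕ := [nat_lit 2,
  nat_lit 1]
noncomputable def I2 (k u : ℕ) : ℕ := Nat.land (Nat.shiftRight (nth (nat_lit 0) I2d k) (Nat.mul u (nat_lit 1))) (nat_lit 1)
noncomputable def D2d : ℕ := nat_lit 2
noncomputable def D2 (u : ℕ) : ℕ := Nat.land (Nat.shiftRight D2d (Nat.mul u (nat_lit 1))) (nat_lit 1)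
noncomputable def RL2 : List (List Rule) := [[.sub (nat_lit 0) [] [], .rel (nat_lit 8) (nat_lit 0) [nat_lit 1, nat_lit 0, nat_lit 1]],
  [.rel (nat_lit 2) (nat_lit 0) [nat_lit 1], .defn]]
noncomputable def c2 : TCert := ⟨2, 2, 1, T2, I2, D2, [[nat_lit 0]], RL2⟩
noncomputable def Pt2d : ℕ := nat_lit 0x35
noncomputable def Pt2 (u : ℕ) : ℕ := Nat.land (Nat.shiftRight Pt2d (Nat.mul u (nat_lit 3))) (nat_lit 7)
noncomputable def Q2d : ℕ := nat_lit 0x40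
noncomputable def Q2 (u : ℕ) : ℕ := Nat.land (Nat.shiftRight Q2d (Nat.mul u (nat_lit 1))) (nat_lit 1)
noncomputable def l2 : H16.Lev := ⟨2, 2, D2, Pt2, Q2⟩
noncomputable def T3d : List ℕ := [nat_lit 3]
noncomputable def T3 (k u : ℕ) : ℕ := Nat.land (Nat.shiftRight (nth (nat_lit 0) T3d k) (Nat.mul u (nat_lit 2))) (nat_lit 3)
noncomputable def I3d : List ℕ := [nat_lit 1]
noncomputable def I3 (k u : ℕ) : ℕ := Nat.land (Nat.shiftRight (nth (nat_lit 0) I3d k) (Nat.mul u (nat_lit 1))) (nat_lit 1)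
noncomputable def D3d : ℕ := nat_lit 0
noncomputable def D3 (u : ℕ) : ℕ := Nat.land (Nat.shiftRight D3d (Nat.mul u (nat_lit 1))) (nat_lit 1)
noncomputable def RL3 : List (List Rule) := [[.rel (nat_lit 0) (nat_lit 0) [nat_lit 0], .defn]]
noncomputable def c3 : TCert := ⟨2, 1, 1, T3, I3, D3, [], RL3⟩
noncomputable def Pt3d : ℕ := nat_lit 0xe
noncomputable def Pt3 (u : ℕ) : ℕ := Nat.land (Nat.shiftRight Pt3d (Nat.mul u (nat_lit 2))) (nat_lit 3)
noncomputable def Q3d : ℕ := nat_lit 8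
noncomputable def Q3 (u : ℕ) : ℕ := Nat.land (Nat.shiftRight Q3d (Nat.mul u (nat_lit 1))) (nat_lit 1)
noncomputable def l3 : H16.Lev := ⟨2, 1, D3, Pt3, Q3⟩
noncomputable def B : List ℕ := [nat_lit 0, nat_lit 1, nat_lit 5, nat_lit 2]
noncomputable def L : List H16.Lev := [l0, l1, l2, l3]

theorem tc0e_a : allZ2 (entryChk T0 (selR RL0 I0) D0 (nat_lit 7) (nat_lit 8) (nat_lit 4)) (nat_lit 4) (nat_lit 8) = true := by decide +kernel
theorem tc0r : rulesChk Rl c0.Sl RL0 (nat_lit 4) = true := by decide +kernel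
theorem ivc : ivChk Rl (nat_lit 4) = true := by decide +kernel
theorem lv0e_0 : allZ (l0.ent P) (nat_lit 0) (nat_lit 7) = true := by decide +kernel
theorem lv0b : Nat.blt (Pt0 (nat_lit 0)) (nat_lit 8) = true ∧ Q0 (Pt0 (nat_lit 0)) = 0 ∧ Pt0 (nat_lit 0) = 0 := by decide +kernel
theorem sb0 : H16.allL (ltAll (nat_lit 3)) c0.Sl = true ∧ fixLetters P (nat_lit 3) (Pt0 (nat_lit 0)) = true := by decide +kernel
theorem tc1e_a : allZ2 (entryChk T1 (selR RL1 I1) D1 (nat_lit 3) (nat_lit 4) (nat_lit 3)) (nat_lit 3) (nat_lit 4) = true := by decide +kernel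
theorem tc1r : rulesChk Rl c1.Sl RL1 (nat_lit 3) = true := by decide +kernel
theorem lv1e_0 : allZ (l1.ent P) (nat_lit 0) (nat_lit 3) = true := by decide +kernel
theorem lv1b : Nat.blt (Pt1 (nat_lit 0)) (nat_lit 8) = true ∧ Q1 (Pt1 (nat_lit 0)) = 0 ∧ Pt1 (nat_lit 0) = 1 := by decide +kernel
theorem sb1 : H16.allL (ltAll (nat_lit 2)) c1.Sl = true ∧ fixLetters P (nat_lit 2) (Pt1 (nat_lit 0)) = true := by decide +kernel
theorem tc2e_a : allZ2 (entryChk T2 (selR RL2 I2) D2 (nat_lit 1) (nat_lit 2) (nat_lit 2)) (nat_lit 2) (nat_lit 2) = true := by decide +kernel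
theorem tc2r : rulesChk Rl c2.Sl RL2 (nat_lit 2) = true := by decide +kernel
theorem lv2e_0 : allZ (l2.ent P) (nat_lit 0) (nat_lit 1) = true := by decide +kernel
theorem lv2b : Nat.blt (Pt2 (nat_lit 0)) (nat_lit 8) = true ∧ Q2 (Pt2 (nat_lit 0)) = 0 ∧ Pt2 (nat_lit 0) = 5 := by decide +kernel
theorem sb2 : H16.allL (ltAll (nat_lit 1)) c2.Sl = true ∧ fixLetters P (nat_lit 1) (Pt2 (nat_lit 0)) = true := by decide +kernel
theorem tc3e_a : allZ2 (entryChk T3 (selR RL3 I3) D3 (nat_lit 1) (nat_lit 2) (nat_lit 1)) (nat_lit 1) (nat_lit 2) = true := by decide +kernel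
theorem tc3r : rulesChk Rl c3.Sl RL3 (nat_lit 1) = true := by decide +kernel
theorem lv3e_0 : allZ (l3.ent P) (nat_lit 0) (nat_lit 1) = true := by decide +kernel
theorem lv3b : Nat.blt (Pt3 (nat_lit 0)) (nat_lit 8) = true ∧ Q3 (Pt3 (nat_lit 0)) = 0 ∧ Pt3 (nat_lit 0) = 2 := by decide +kernel
theorem sb3 : H16.allL (ltAll (nat_lit 0)) c3.Sl = true ∧ fixLetters P (nat_lit 0) (Pt3 (nat_lit 0)) = true := by decide +kernel
theorem Blt : ltAll (nat_lit 8) B = 0 := by decide +kernel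

theorem tc0e : ∀ k < 4, ∀ i < 8, (entryChk T0 (selR RL0 I0) D0 (nat_lit 7) (nat_lit 8) (nat_lit 4)) k i = 0 := allZ2_sound tc0e_a
theorem tc0 : c0.OK Rl 4 := ⟨by decide, by decide, by decide, ivc, tc0r, tc0e⟩
theorem lv0e : ∀ i < 7, (l0.ent P) i = 0 := allZ_sound0 lv0e_0
theorem lv0 : l0.OK P 8 := ⟨by decide, by decide, lt_of_blt lv0b.1, lv0b.2.1, lv0e⟩
theorem tc1e : ∀ k < 3, ∀ i < 4, (entryChk T1 (selR RL1 I1) D1 (nat_lit 3) (nat_lit 4) (nat_lit 3)) k i = 0 := allZ2_sound tc1e_a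
theorem tc1 : c1.OK Rl 4 := ⟨by decide, by decide, by decide, ivc, tc1r, tc1e⟩
theorem lv1e : ∀ i < 3, (l1.ent P) i = 0 := allZ_sound0 lv1e_0
theorem lv1 : l1.OK P 8 := ⟨by decide, by decide, lt_of_blt lv1b.1, lv1b.2.1, lv1e⟩
theorem tc2e : ∀ k < 2, ∀ i < 2, (entryChk T2 (selR RL2 I2) D2 (nat_lit 1) (nat_lit 2) (nat_lit 2)) k i = 0 := allZ2_sound tc2e_a
theorem tc2 : c2.OK Rl 4 := ⟨by decide, by decide, by decide, ivc, tc2r, tc2e⟩
theorem lv2e : ∀ i < 1, (l2.ent P) i = 0 := allZ_sound0 lv2e_0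
theorem lv2 : l2.OK P 8 := ⟨by decide, by decide, lt_of_blt lv2b.1, lv2b.2.1, lv2e⟩
theorem tc3e : ∀ k < 1, ∀ i < 2, (entryChk T3 (selR RL3 I3) D3 (nat_lit 1) (nat_lit 2) (nat_lit 1)) k i = 0 := allZ2_sound tc3e_a
theorem tc3 : c3.OK Rl 4 := ⟨by decide, by decide, by decide, ivc, tc3r, tc3e⟩
theorem lv3e : ∀ i < 1, (l3.ent P) i = 0 := allZ_sound0 lv3e_0
theorem lv3 : l3.OK P 8 := ⟨by decide, by decide, lt_of_blt lv3b.1, lv3b.2.1, lv3e⟩
theorem bound3 : Bound Rl 1 2 := Bound.step' (Bound.zero Rl) tc3 sb3.1 (by decide +kernel)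
theorem bound2 : Bound Rl 2 4 := Bound.step' (bound3) tc2 sb2.1 (by decide +kernel)
theorem bound1 : Bound Rl 3 16 := Bound.step' (bound2) tc1 sb1.1 (by decide +kernel)
theorem bound0 : Bound Rl 4 128 := Bound.step' (bound1) tc0 sb0.1 (by decide +kernel)
/-- every tuple satisfying `Rl` generates a group of order at most `128` -/
theorem bound : Bound Rl 4 128 := bound0
theorem chain_of {G Ω : Type*} [Group G] [MulAction G Ω] {g : ℕ → G} {pt : ℕ → Ω}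
    (h : Act g pt P 8 4) (hR : Rels g Rl) : IsChain g pt 8 L :=
  IsChain.cons (L := [l1, l2, l3]) (IsChain.cons (L := [l2, l3]) (IsChain.cons (L := [l3]) (IsChain.cons (L := []) (trivial) h hR tc3 lv3 rfl rfl rfl (by decide) sb3.1 sb3.2) h hR tc2 lv2 rfl rfl rfl (by decide) sb2.1 sb2.2) h hR tc1 lv1 rfl rfl rfl (by decide) sb1.1 sb1.2) h hR tc0 lv0 rfl rfl rfl (by decide) sb0.1 sb0.2
theorem base_eq : chainBase L = B := by decide +kernel

end H15.XYS8
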